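import Cfsg.Agent.H553.RV.LinD

/-!
# S4247, row `[L]`: the abstract frame lemmas (helper199)
-/

set_option autoImplicit false
set_option linter.unusedSectionVars false

namespace Cfsg.Agent.H199.DPL

open Module Cfsg.Agent.H167.OP Cfsg.Agent.H170.HL Cfsg.Agent.H556.HallRowAbs Cfsg.Agent.H556.HallLB
  Cfsg.Agent.H556.HallSmallCen Cfsg.Agent.H553.RV

variable {F : Type*} [Field F] {V : Type*} [AddCommGroup V] [Module F V] {Y : Type*} [Group Y]
  {ρ : Representation F Y V} [FiniteDimensional F V] [Finite Y] {e : ℕ → ℕ} {X H : Subgroup Y} {t : ℕ}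

/-- an element of `H` of minimal support has the support of an element of the frame -/
theorem same_supp (D : LinDat ρ e X) (hH : HC F H) (ht : t.Prime) (hodd : Odd t) (htF : (t : F) ≠ 0)
    (hgen : 2 * e t < t) {m : ℕ} {f : Fin m → Y} (hf : Fm ρ e H t m f) {a : Y} (ha : IsZ ρ e t a) (haH : a ∈ H) :
    ∃ j, Rg ρ a = Rg ρ (f j) := by
  have hc : ∀ j, a * f j = f j * a := fun j =>
    small_comm D.row.inj hH ht htF (ha.sm haH hgen) ((hf.isZ j).sm (hf.mem j) hgen)
  have h1 : ¬ ∀ j, ∀ w ∈ Rg ρ a, ρ (f j) w = w := by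
    intro h
    have := hf.max (Rg ρ a) h
    rw [finrank_Rg, ha.2] at this
    omega
  push Not at h1
  obtain ⟨j, w, hw, hwj⟩ := h1
  refine ⟨j, ?_⟩
  rcases atom_or D ht hodd htF ha (hf.isZ j) (hc j) with h | h
  · exact h
  · exact absurd (h w hw) hwj

/-- `H` permutes the supports -/
theorem perm_of_frame (D : LinDat ρ e X) (hH : HC F H) (ht : t.Prime) (hodd : Odd t) (htF : (t : F) ≠ 0)
    (hgen : 2 * e t < t) {m : ℕ} {f : Fin m → Y} (hf : Fm ρ e H t m f) {g : Y} (hg : g ∈ H) (i : Fin m) :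
    ∃ j, (Rg ρ (f i)).map (ρ g) = Rg ρ (f j) := by
  obtain ⟨j, hj⟩ := same_supp D hH ht hodd htF hgen hf ((hf.isZ i).conj g)
    (H.mul_mem (H.mul_mem hg (hf.mem i)) (H.inv_mem hg))
  exact ⟨j, by rw [← hj, Rg_conj]⟩

/-- conjugates of the frame elements are powers of frame elements -/
theorem conj_eq_pow (D : LinDat ρ e X) (hH : HC F H) (ht : t.Prime) (hodd : Odd t) (htF : (t : F) ≠ 0)
    (hgen : 2 * e t < t) {m : ℕ} {f : Fin m → Y} (hf : Fm ρ e H t m f) {g : Y} (hg : g ∈ H) (i : Fin m) :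
    ∃ (j : Fin m) (k : ℕ), g * f i * g⁻¹ = f j ^ k := by
  have h1 : g * f i * g⁻¹ ∈ H := H.mul_mem (H.mul_mem hg (hf.mem i)) (H.inv_mem hg)
  have h2 : IsZ ρ e t (g * f i * g⁻¹) := (hf.isZ i).conj g
  obtain ⟨j, hj⟩ := same_supp D hH ht hodd htF hgen hf h2 h1
  obtain ⟨k, hk⟩ := mem_zpowers_of_Rg D.row ht hodd htF (hf.isZ j) h2.1
    (small_comm D.row.inj hH ht htF ((hf.isZ j).sm (hf.mem j) hgen) (h2.sm h1 hgen)) hj.le
  exact ⟨j, k, hk⟩

omit [FiniteDimensional F V] [Finite Y] in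
theorem fix_pow {a : Y} {v : V} (h : ρ a v = v) (k : ℕ) : ρ (a ^ k) v = v := by
  induction k with
  | zero => rw [pow_zero, one_ap]
  | succ k ih => rw [pow_succ, mul_ap, h, ih]

/-- `H` preserves the common fixed space of the frame -/
theorem fix_of_mem (D : LinDat ρ e X) (hH : HC F H) (ht : t.Prime) (hodd : Odd t) (htF : (t : F) ≠ 0)
    (hgen : 2 * e t < t) {m : ℕ} {f : Fin m → Y} (hf : Fm ρ e H t m f) {g : Y} (hg : g ∈ H) {v : V}
    (hv : ∀ i, ρ (f i) v = v) (i : Fin m) : ρ (f i) (ρ g v) = ρ g v := by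
  obtain ⟨j, k, hk⟩ := conj_eq_pow D hH ht hodd htF hgen hf (H.inv_mem hg) i
  have h1 : f i * g = g * f j ^ k := by
    rw [← hk, inv_inv]
    group
  rw [← mul_ap, h1, mul_ap, fix_pow (hv j)]

omit [FiniteDimensional F V] in
/-- the decomposition of a vector -/
theorem dec (htF : (t : F) ≠ 0) {m : ℕ} {f : Fin m → Y} (hf : Fm ρ e H t m f) (v : V) :
    ∃ v0 : V, (∀ i, ρ (f i) v0 = v0) ∧ ∃ w : Fin m → V, (∀ i, w i ∈ Rg ρ (f i)) ∧ v = v0 + ∑ i, w i := by
  have h1 : ∀ i, ∃ w ∈ Rg ρ (f i), ρ (f i) (v - w) = v - w := by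
    intro i
    obtain ⟨w, hw, b, hb, hv⟩ := exists_decomp htF (hf.isZ i).1 v
    exact ⟨w, hw, by rw [show v - w = b by rw [hv]; abel]; exact hb⟩
  choose w hw hfw using h1
  refine ⟨v - ∑ i, w i, fun k => ?_, w, hw, by abel⟩
  have h2 : ρ (f k) (∑ i, w i) - ∑ i, w i = ρ (f k) (w k) - w k := by
    rw [map_sum, ← Finset.sum_sub_distrib]
    refine Finset.sum_eq_single_of_mem k (Finset.mem_univ k) fun i _ hik => ?_
    obtain ⟨u, hu⟩ := mem_Rg.mp (hw i)
    rw [← hu, hf.ind k i hik.symm u, sub_self]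
  have h3 := hfw k
  rw [map_sub] at h3 ⊢
  have h4 : ρ (f k) v - v = ρ (f k) (w k) - w k := by
    rw [sub_eq_sub_iff_add_eq_add] at h3 ⊢
    rw [h3]; abel
  have h5 : ρ (f k) v - ρ (f k) (∑ i, w i) - (v - ∑ i, w i) = 0 := by
    rw [show ρ (f k) v - ρ (f k) (∑ i, w i) - (v - ∑ i, w i) =
      (ρ (f k) v - v) - (ρ (f k) (∑ i, w i) - ∑ i, w i) by abel, h2, h4, sub_self]
  exact sub_eq_zero.mp h5

/-- the dimensions -/
theorem finrank_dec (htF : (t : F) ≠ 0) {m : ℕ} {f : Fin m → Y} (hf : Fm ρ e H t m f) (U : Submodule F V)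
    (hU : ∀ v, v ∈ U ↔ ∀ i, ρ (f i) v = v) : finrank F U + m * e t = finrank F V := by
  classical
  let φ : (U × (∀ i, Rg ρ (f i))) →ₗ[F] V :=
    LinearMap.coprod U.subtype (LinearMap.lsum F (fun i => Rg ρ (f i)) F fun i => (Rg ρ (f i)).subtype)
  have hφ : ∀ (u : U) (w : ∀ i, Rg ρ (f i)), φ (u, w) = (u : V) + ∑ i, (w i : V) := by
    intro u w
    simp [φ, LinearMap.coprod_apply, LinearMap.lsum_apply, LinearMap.sum_apply]
  have hinj : Function.Injective φ := by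
    rw [← LinearMap.ker_eq_bot, LinearMap.ker_eq_bot']
    rintro ⟨u, w⟩ h
    rw [hφ] at h
    have h1 : ∀ k, (w k : V) = 0 := by
      intro k
      refine eq_zero_of_fix htF (hf.isZ k).1 (w k).2 ?_
      have h2 : ρ (f k) ((u : V) + ∑ i, (w i : V)) - ((u : V) + ∑ i, (w i : V)) = ρ (f k) (w k) - w k := by
        rw [map_add, (hU u).mp u.2 k, add_sub_add_left_eq_sub, map_sum, ← Finset.sum_sub_distrib]
        refine Finset.sum_eq_single_of_mem k (Finset.mem_univ k) fun i _ hik => ?_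
        obtain ⟨x, hx⟩ := mem_Rg.mp (w i).2
        rw [← hx, hf.ind k i hik.symm x, sub_self]
      rw [h, map_zero, sub_zero] at h2
      exact sub_eq_zero.mp h2.symm
    have h2 : (u : V) = 0 := by
      rw [Finset.sum_eq_zero fun i _ => h1 i, add_zero] at h
      exact h
    exact Prod.ext (Subtype.ext h2) (funext fun k => Subtype.ext (h1 k))
  have hsur : Function.Surjective φ := by
    intro v
    obtain ⟨v0, hv0, w, hw, h⟩ := dec htF hf v
    exact ⟨(⟨v0, (hU v0).mpr hv0⟩, fun i => ⟨w i, hw i⟩), by rw [hφ]; exact h.symm⟩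
  have h1 := (LinearEquiv.ofBijective φ ⟨hinj, hsur⟩).finrank_eq
  rw [← h1, finrank_prod, finrank_pi_fintype]
  congr 1
  rw [Finset.sum_congr rfl fun i _ => (finrank_Rg (ρ := ρ) (f i)).trans (hf.isZ i).2, Finset.sum_const,
    Finset.card_univ, Fintype.card_fin, smul_eq_mul]

/-! ## The choice of the prime -/

/-- two primes `u < v` with `e u = u - 1`, `e v = v - 1` do not both divide the order of `H` -/
theorem not_two (D : LinDat ρ e X) (hH : HC F H) {u v : ℕ} (hu : u.Prime) (hv : v.Prime)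
    (huH : u ∣ Nat.card H) (hvH : v ∣ Nat.card H) (hui : ¬ u ∣ H.index) (hvi : ¬ v ∣ H.index) (huv : u < v)
    (heu : e u = u - 1) (hev : e v = v - 1) : False := by
  obtain ⟨hu2, huF⟩ := hH.ok u hu huH
  obtain ⟨hv2, hvF⟩ := hH.ok v hv hvH
  have huo : Odd u := hu.odd_of_ne_two hu2
  have hvo : Odd v := hv.odd_of_ne_two hv2
  have huY : u ∣ Nat.card Y := huH.trans (Subgroup.card_subgroup_dvd_card H)
  have hvY : v ∣ Nat.card Y := hvH.trans (Subgroup.card_subgroup_dvd_card H)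
  have hu0 := hu.two_le
  obtain ⟨K, hKH, hKp, hKi⟩ : ∃ K : Subgroup Y, K ≤ H ∧ (∀ r : ℕ, r.Prime → r ∣ Nat.card K → r = u ∨ r = v) ∧
      ∀ r : ℕ, r.Prime → (r = u ∨ r = v) → ¬ r ∣ K.index := by
    obtain ⟨K, hK⟩ := Cfsg.Agent.OddOrderLocal.HallPi.exists_isPiHallOf hH.sol ({u, v} : Set ℕ)
    refine ⟨K, hK.1, fun r hr hd => ?_, fun r hr hruv hd => ?_⟩
    · exact hK.2.1 r hr hd
    · rw [← Subgroup.relIndex_mul_index hK.1] at hd
      rcases (Nat.Prime.dvd_mul hr).mp hd with h | h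
      · exact hK.2.2 r hr hruv h
      · rcases hruv with rfl | rfl
        · exact hui h
        · exact hvi h
  have hKC := hH.mono hKH
  obtain ⟨m, f, hf⟩ := exists_frame D hu huo huF huY (hKi u hu (Or.inl rfl))
  obtain ⟨m', f', hf'⟩ := exists_frame D hv hvo hvF hvY (hKi v hv (Or.inr rfl))
  have hm' : 0 < m' := by
    by_contra h0
    have h1 := hf'.max ⊤ (fun i => absurd i.2 (by omega))
    obtain ⟨x, hx⟩ := @exists_prime_orderOf_dvd_card' _ _ _ v (Fact.mk hv) hvY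
    have h2 := le_rk_of_ne D.row hv hvo hvF (y := x) (by rw [← hx]; exact pow_orderOf_eq_one x) (by
      rintro rfl
      rw [orderOf_one] at hx
      exact hv.one_lt.ne hx)
    have h3 := Submodule.finrank_mono (le_top : Rg ρ x ≤ ⊤)
    rw [finrank_Rg] at h3
    omega
  have hc : ∀ i, f i * f' ⟨0, hm'⟩ = f' ⟨0, hm'⟩ * f i := fun i =>
    pair_uv D hKC hu huo huF hv hvo hvF huv heu hev hKp (hf'.isZ _) (hf'.mem _) (hf.isZ i) (hf.mem i)
  have h1 := e_le_of_comm D huF hv hvo hvF hf (hf'.isZ ⟨0, hm'⟩) hc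
  omega

omit [FiniteDimensional F V] in
/-- a prime which is not generic -/
theorem e_eq (D : LinDat ρ e X) {r : ℕ} (hr : r.Prime) (hrF : (r : F) ≠ 0) (hgen : ¬ 2 * e r < r) :
    e r = r - 1 := by
  have h0 := hr.two_le
  obtain ⟨k, hk⟩ := D.row.edvd r hr hrF
  have h1 : k ≠ 0 := by rintro rfl; omega
  have h2 : k < 2 := by
    by_contra h3
    have : e r * 2 ≤ e r * k := Nat.mul_le_mul_left _ (by omega)
    omega
  have h3 : k = 1 := by omega
  rw [h3, mul_one] at hk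
  exact hk.symm

omit [FiniteDimensional F V] in
/-- a group which is not nilpotent has two prime divisors -/
theorem exists_two_primes (hnil : ¬ Group.IsNilpotent H) :
    ∃ u v : ℕ, u.Prime ∧ v.Prime ∧ u ∣ Nat.card H ∧ v ∣ Nat.card H ∧ u < v := by
  by_contra hcon
  push Not at hcon
  have h1 : Nat.card H ≠ 1 := by
    intro h
    have : Subsingleton H := (Nat.card_eq_one_iff_unique.mp h).1
    exact hnil inferInstance
  obtain ⟨p, hp, hpd⟩ := Nat.exists_prime_and_dvd h1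
  have := Fact.mk hp
  have h2 : IsPGroup p H := by
    refine IsPGroup.of_card (n := (Nat.card H).primeFactorsList.length)
      (Nat.eq_prime_pow_of_unique_prime_dvd Nat.card_pos.ne' fun {r} hr hrd => ?_)
    rcases lt_trichotomy r p with h | h | h
    · exact absurd h (not_lt.mpr (hcon r p hr hp hrd hpd))
    · exact h
    · exact absurd h (not_lt.mpr (hcon p r hp hr hpd hrd))
  exact hnil h2.isNilpotent

/-- the generic prime -/
theorem exists_gen (D : LinDat ρ e X) (hH : HC F H) (hidx : ∀ r : ℕ, r.Prime → r ∣ Nat.card H → ¬ r ∣ H.index)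
    (hnil : ¬ Group.IsNilpotent H) : ∃ t : ℕ, t.Prime ∧ t ∣ Nat.card H ∧ 2 * e t < t := by
  obtain ⟨u, v, hu, hv, huH, hvH, huv⟩ := exists_two_primes hnil
  by_contra hcon
  push Not at hcon
  exact not_two D hH hu hv huH hvH (hidx u hu huH) (hidx v hv hvH) huv
    (e_eq D hu (hH.ok u hu huH).2 (not_lt.mpr (hcon u hu huH)))
    (e_eq D hv (hH.ok v hv hvH).2 (not_lt.mpr (hcon v hv hvH)))

/-- the generic prime in dimension `3` -/
theorem exists_gen' (D : LinDat ρ e X) (hH : HC F H) (hidx : ∀ r : ℕ, r.Prime → r ∣ Nat.card H → ¬ r ∣ H.index)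
    (hnil : ¬ Group.IsNilpotent H) :
    ∃ t : ℕ, t.Prime ∧ t ∣ Nat.card H ∧ 2 * e t < t ∧ ¬ (finrank F V = 3 ∧ t = 3) := by
  obtain ⟨t, ht, htH, hgen⟩ := exists_gen D hH hidx hnil
  by_cases hex : finrank F V = 3 ∧ t = 3
  · obtain ⟨h3, rfl⟩ := hex
    obtain ⟨u, v, hu, hv, huH, hvH, huv⟩ := exists_two_primes hnil
    obtain ⟨s, hs, hsH, hs3⟩ : ∃ s : ℕ, s.Prime ∧ s ∣ Nat.card H ∧ s ≠ 3 := by
      by_cases h : u = 3
      · exact ⟨v, hv, hvH, by omega⟩
      · exact ⟨u, hu, huH, h⟩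
    obtain ⟨hs2, hsF⟩ := hH.ok s hs hsH
    have hso := hs.odd_of_ne_two hs2
    have hs0 := hs.two_le
    obtain ⟨x, hx⟩ := @exists_prime_orderOf_dvd_card' _ _ _ s (Fact.mk hs)
      (hsH.trans (Subgroup.card_subgroup_dvd_card H))
    have h2 := le_rk_of_ne D.row hs hso hsF (y := x) (by rw [← hx]; exact pow_orderOf_eq_one x) (by
      rintro rfl
      rw [orderOf_one] at hx
      exact hs.one_lt.ne hx)
    have h4 := Submodule.finrank_mono (le_top : Rg ρ x ≤ ⊤)
    rw [finrank_Rg, finrank_top, h3] at h4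
    refine ⟨s, hs, hsH, ?_, fun h => hs3 h.2⟩
    by_contra hge
    have h5 := e_eq D hs hsF hge
    have h6 : s ≤ 4 := by omega
    interval_cases s
    · omega
    · omega
    · exact absurd hs (by norm_num)
  · exact ⟨t, ht, htH, hgen, hex⟩

end Cfsg.Agent.H199.DPL
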